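import Cfsg.Agent.H143.OdmLift
import Cfsg.Agent.H217.Odm.Eng
import Cfsg.Agent.H898.J3Cent
import Cfsg.Agent.H315.JThreeFact
import Cfsg.Agent.NotCT.Orders

/-!
# TEAM ODDM (S4785): the third Janko group (helper143)
-/

set_option autoImplicit false

namespace Cfsg.Agent.H143.OdmRowJ3

open Cfsg Cfsg.Agent.H453.OddM Cfsg.Agent.H217.Odm Cfsg.Agent.H257.El

universe u

theorem realP_five {T : Type u} [Group T] [Finite T] (h : Spor.IsoJ3 T) : RealP T 5 := by
  obtain ⟨x, hx⟩ := exists_prime_orderOf_dvd_card' (G := T) 2 (by rw [NotCT.Orders.j3 h]; norm_num)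
  obtain ⟨ψ, hψ, hk, -⟩ := Cfsg.Agent.H315.JThreeFact.exists_psi h x hx
  obtain ⟨y, hy, hr⟩ := Cfsg.Agent.H143.OdmLift.realP_five ψ hψ.ge (by rw [hk]; norm_num)
  exact ⟨y, by rw [Subgroup.orderOf_coe, hy], hr.coe⟩

theorem row (tab : Cfsg.Agent.OrdDiv.OrderTable.{u}) (known : Cfsg.Agent.H257.El.Known.{u}) {T : Type u} [Group T]
    (h : Cfsg.Spor.IsoJ3 T) : Cfsg.Agent.H453.OddM.Row T := by
  have hc := NotCT.Orders.j3 h
  have : Finite T := Nat.finite_of_card_ne_zero (by rw [hc]; norm_num)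
  have hx17 : ∃ x : T, orderOf x = 17 := by
    have : Fact (Nat.Prime 17) := ⟨by norm_num⟩
    exact exists_prime_orderOf_dvd_card' (G := T) 17 (by rw [hc]; norm_num)
  obtain ⟨x, hx⟩ := hx17
  have hreal : RealP T 17 := ⟨x, hx, (norm_of_cent (c := 1) (e := 8) (n := 2954880) (by norm_num) (by rw [hc])
    (by norm_num) hx (by rw [(H898.J3Cent.seventeen h hx).1]) (by norm_num) (by norm_num)).2 (by decide)⟩
  refine row_of_two tab known (r := 17) (nu := 8) (ss := [5]) (l := [(2, 7), (3, 5), (5, 1), (17, 1), (19, 1)]) hc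
    (by norm_num) hreal (fun x hx => (H898.J3Cent.seventeen h hx).2) ?_ (by decide +kernel)
  intro s hs
  rw [List.mem_singleton] at hs
  subst hs
  exact ⟨by norm_num, realP_five h,
    noOrd_of_cent (by norm_num) (fun x hx => (H898.J3Cent.seventeen h hx).1) (by norm_num) (by norm_num)⟩

end Cfsg.Agent.H143.OdmRowJ3
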